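import Mathlib
import Cfsg.Agent.Lib.Helper49.HUP.Defs

/-!
# S3361 (team project HUP): package [SEMID]

Semilinearity over a finite field in the universe of `V` gives semilinearity over a finite field
in `Type`: transport along a ring isomorphism with a Galois field.
-/

set_option autoImplicit false

namespace Cfsg.Agent.Lib.Helper79.HUP

open Cfsg.Agent.Lib.Helper49.HUP

universe u v

/-- A finite field is isomorphic to a finite field in `Type`. -/
theorem semid_exists_small (F₀ : Type u) [Field F₀] [Finite F₀] :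
    ∃ (F : Type) (_ : Field F) (_ : Fintype F), Nonempty (F₀ ≃+* F) := by
  classical
  have : Fintype F₀ := Fintype.ofFinite F₀
  obtain ⟨p, hp, n, hpp, hcard⟩ := FiniteField.card' F₀
  have : Fact p.Prime := ⟨hpp⟩
  have : Fintype (GaloisField p n) := Fintype.ofFinite _
  refine ⟨GaloisField p n, inferInstance, inferInstance, ⟨FiniteField.ringEquivOfCardEq ?_⟩⟩
  rw [hcard, ← Nat.card_eq_fintype_card, GaloisField.card p n n.ne_zero]

/-- **[SEMID]** -/
theorem pkgSemiD : PkgSemiD.{u, v} := by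
  intro q _ V _ _ _ _ G _ ρ h
  obtain ⟨F₀, hF, hfin, e, he⟩ := h
  obtain ⟨F, hF', hfin', ⟨ψ⟩⟩ := semid_exists_small F₀
  refine ⟨F, hF', hfin', e.trans ψ.toAddEquiv, fun g => ?_⟩
  obtain ⟨a, σ, h⟩ := he g
  refine ⟨ψ a, ψ.symm.trans (σ.trans ψ), fun v => ?_⟩
  show ψ (e (ρ g v)) = ψ a * ψ (σ (ψ.symm (ψ (e v))))
  rw [h v, map_mul, RingEquiv.symm_apply_apply]

end Cfsg.Agent.Lib.Helper79.HUP
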